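import Cfsg.Agent.H454.Reg.Tools
import Cfsg.Agent.H370.Rg.Size
import Cfsg.Agent.H262.Rx.Name
import Cfsg.Prelude.Def_GeometricClasses

/-!
# S3691, `PSL_n(q)`: sizes (helper294, task PSL-15)

* `sl_ge` : `q ^ (n² - 1) ≤ 2 |SL_n(q)|`;
* `q_ge` : lower bounds for `q`.
-/

set_option autoImplicit false

namespace Cfsg.Agent.H294.Rl

open Cfsg Cfsg.Geo Matrix Module Cfsg.Agent.H454.Reg
open scoped MatrixGroups

universe u

/-- the order of `GL_m(q)` -/
def PG (q m : ℕ) : ℕ := ∏ i ∈ Finset.range m, (q ^ m - q ^ i)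

theorem PG_succ (q m : ℕ) : PG q (m + 1) = (q ^ (m + 1) - 1) * (q ^ m * PG q m) := by
  unfold PG
  rw [Finset.prod_range_succ', pow_zero, mul_comm]
  congr 1
  have h : ∀ i ∈ Finset.range m, q ^ (m + 1) - q ^ (i + 1) = q * (q ^ m - q ^ i) := by
    intro i _
    rw [Nat.mul_sub, pow_succ', pow_succ']
  rw [Finset.prod_congr rfl h, Finset.prod_mul_distrib, Finset.prod_const, Finset.card_range]

theorem PG_ge {q : ℕ} (hq : 2 ≤ q) : ∀ m : ℕ, 1 ≤ m →
    (q - 1) * q ^ (m ^ 2 - 1) * (q ^ m + 2) ≤ 2 * q ^ m * PG q m := by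
  intro m hm
  induction m, hm using Nat.le_induction with
  | base =>
    have h1 : PG q 1 = q - 1 := by simp [PG]
    rw [h1, pow_one, one_pow, Nat.sub_self, pow_zero, mul_one]
    calc (q - 1) * (q + 2) ≤ (q - 1) * (2 * q) := Nat.mul_le_mul_left _ (by omega)
      _ = _ := by ring
  | succ m hm ih =>
    have hA : 2 ≤ q ^ m := by
      calc 2 ≤ q := hq
        _ = q ^ 1 := (pow_one q).symm
        _ ≤ q ^ m := Nat.pow_le_pow_right (by omega) hm
    have h1 : q ^ m * (q ^ (m + 1) + 2) ≤ (q ^ (m + 1) - 1) * (q ^ m + 2) := by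
      rw [pow_succ]
      generalize q ^ m = A at hA
      have h2 : 2 * A ≤ A * q := by rw [mul_comm 2 A]; exact Nat.mul_le_mul_left _ hq
      obtain ⟨B, hB⟩ : ∃ B, A * q = B + 1 := ⟨A * q - 1, by omega⟩
      rw [hB, Nat.add_sub_cancel]
      nlinarith
    have e1 : (m + 1) ^ 2 - 1 = (m ^ 2 - 1) + (m + 1) + m := by
      have : 1 ≤ m ^ 2 := Nat.one_le_pow _ _ hm
      have : (m + 1) ^ 2 = m ^ 2 + 2 * m + 1 := by ring
      omega
    rw [PG_succ, e1]
    calc (q - 1) * q ^ ((m ^ 2 - 1) + (m + 1) + m) * (q ^ (m + 1) + 2)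
        = (q - 1) * q ^ (m ^ 2 - 1) * q ^ (m + 1) * (q ^ m * (q ^ (m + 1) + 2)) := by rw [pow_add, pow_add]; ring
      _ ≤ (q - 1) * q ^ (m ^ 2 - 1) * q ^ (m + 1) * ((q ^ (m + 1) - 1) * (q ^ m + 2)) := Nat.mul_le_mul_left _ h1
      _ = (q ^ (m + 1) * (q ^ (m + 1) - 1)) * ((q - 1) * q ^ (m ^ 2 - 1) * (q ^ m + 2)) := by ring
      _ ≤ (q ^ (m + 1) * (q ^ (m + 1) - 1)) * (2 * q ^ m * PG q m) := Nat.mul_le_mul_left _ ih
      _ = _ := by ring

theorem PG_ge' {q : ℕ} (hq : 2 ≤ q) {m : ℕ} (hm : 1 ≤ m) : (q - 1) * q ^ (m ^ 2 - 1) ≤ 2 * PG q m := by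
  have h1 := PG_ge hq m hm
  have hA : 0 < q ^ m := Nat.pow_pos (by omega)
  refine Nat.le_of_mul_le_mul_right ?_ hA
  calc (q - 1) * q ^ (m ^ 2 - 1) * q ^ m ≤ (q - 1) * q ^ (m ^ 2 - 1) * (q ^ m + 2) := Nat.mul_le_mul_left _ (by omega)
    _ ≤ _ := h1
    _ = _ := by ring

section
variable {F : Type} [Field F] [Fintype F] {n : ℕ}

theorem card_sl_mul (hn : 1 ≤ n) : Nat.card (specialLinear (Fin n) F) * (Fintype.card F - 1) = PG (Fintype.card F) n := by
  have : Nonempty (Fin n) := ⟨⟨0, hn⟩⟩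
  have h1 := (Matrix.GeneralLinearGroup.det : GL (Fin n) F →* Fˣ).ker.card_eq_card_quotient_mul_card_subgroup
  have h2 : Nat.card (GL (Fin n) F ⧸ (Matrix.GeneralLinearGroup.det : GL (Fin n) F →* Fˣ).ker) = Nat.card Fˣ :=
    Nat.card_congr (QuotientGroup.quotientKerEquivOfSurjective _ Matrix.GeneralLinearGroup.det_surjective).toEquiv
  rw [h2, Nat.card_units, Nat.card_eq_fintype_card (α := F), Matrix.card_GL_field,
    Fin.prod_univ_eq_prod_range (fun i => Fintype.card F ^ n - Fintype.card F ^ i) n] at h1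
  rw [PG, h1, mul_comm]
  rfl

/-- PSL-15: lower bound -/
theorem sl_ge (hn : 2 ≤ n) : Fintype.card F ^ (n ^ 2 - 1) ≤ 2 * Nat.card (specialLinear (Fin n) F) := by
  have hq : 2 ≤ Fintype.card F := Fintype.one_lt_card
  have h1 := PG_ge' hq (m := n) (by omega)
  rw [← card_sl_mul (F := F) (by omega)] at h1
  refine Nat.le_of_mul_le_mul_left ?_ (show 0 < Fintype.card F - 1 by omega)
  calc _ ≤ _ := h1
    _ = _ := by ring

/-- PSL-15': sizes -/
theorem q_ge {G : Type u} [Group G] [Finite G] {T X Y : Subgroup G} (h : Fac T X Y) (hn : 3 ≤ n)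
    (e : T ≃* Matrix.ProjectiveSpecialLinearGroup (Fin n) F) :
    (n = 3 → 8000 < Fintype.card F) ∧ (n = 4 → 121 < Fintype.card F) ∧ (n = 5 → 20 ≤ Fintype.card F) ∧ (n = 6 → 8 ≤ Fintype.card F) ∧
    (n = 7 → 5 ≤ Fintype.card F) ∧ (n = 8 → 4 ≤ Fintype.card F) ∧ (n = 9 → 3 ≤ Fintype.card F) ∧ (n = 10 → 3 ≤ Fintype.card F) := by
  have h1 := Cfsg.Agent.H370.Rg.psl_ge h.large (Cfsg.Agent.H262.Rx.named_psl (by omega) (by omega) e)
  obtain ⟨-, h3, h4, h5, h6, h7, h8, h10⟩ := h1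
  refine ⟨fun h => ?_, fun h => ?_, fun h => ?_, fun h => ?_, fun h => ?_, fun h => ?_, fun h => ?_, fun h => ?_⟩
  · have := h3 h; omega
  · have := h4 h; omega
  · have := h5 h; omega
  · have := h6 h; omega
  · have := h7 h; omega
  · have := h8 h; omega
  · have := h10 (by omega); omega
  · have := h10 (by omega); omega

end

end Cfsg.Agent.H294.Rl
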